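import Cfsg.Agent.MaxClassP.Gamma

/-!
A finite group whose Sylow `p`-subgroup has maximal class: an element `x` of that subgroup with
centraliser of order `p ^ 2` there, outside a normal subgroup containing the second centre, has
centraliser of `p`-part exactly `p ^ 2` in the whole group.
-/

set_option autoImplicit false
set_option linter.unusedSectionVars false

open Subgroup
open scoped commutatorElement

namespace Cfsg.Agent.MaxClassP

variable {G : Type*} [Group G]

/-- The elements normalising `W` which fix `E` modulo `W`. -/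
def fixMod (E W : Subgroup G) : Subgroup G where
  carrier := {g | g ∈ normalizer (W : Set G) ∧ ∀ e ∈ E, ⁅g, e⁆ ∈ W}
  one_mem' := ⟨one_mem _, fun e _ => by rw [commutatorElement_one_left]; exact one_mem _⟩
  mul_mem' := by
    rintro a b ⟨ha, ha'⟩ ⟨hb, hb'⟩
    refine ⟨mul_mem ha hb, fun e he => ?_⟩
    rw [show ⁅a * b, e⁆ = a * ⁅b, e⁆ * a⁻¹ * ⁅a, e⁆ by simp only [commutatorElement_def]; group]
    exact mul_mem ((mem_normalizer_iff.1 ha _).1 (hb' e he)) (ha' e he)
  inv_mem' := by
    rintro a ⟨ha, ha'⟩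
    refine ⟨inv_mem ha, fun e he => ?_⟩
    rw [show ⁅a⁻¹, e⁆ = a⁻¹ * ⁅a, e⁆⁻¹ * a by simp only [commutatorElement_def]; group]
    refine (mem_normalizer_iff.1 ha _).2 ?_
    rw [show a * (a⁻¹ * ⁅a, e⁆⁻¹ * a) * a⁻¹ = ⁅a, e⁆⁻¹ by group]
    exact inv_mem (ha' e he)

theorem mem_fixMod {E W : Subgroup G} {g : G} :
    g ∈ fixMod E W ↔ g ∈ normalizer (W : Set G) ∧ ∀ e ∈ E, ⁅g, e⁆ ∈ W := Iff.rfl

theorem fixMod_sup {A B W : Subgroup G} (hA : A ≤ normalizer (W : Set G))
    (hB : B ≤ normalizer (W : Set G)) {g : G} (hgA : g ∈ fixMod A W) (hgB : g ∈ fixMod B W) :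
    g ∈ fixMod (A ⊔ B) W := by
  refine ⟨hgA.1, ?_⟩
  let S : Subgroup G :=
    { carrier := {e | e ∈ normalizer (W : Set G) ∧ ⁅g, e⁆ ∈ W}
      one_mem' := ⟨one_mem _, by rw [commutatorElement_one_right]; exact one_mem _⟩
      mul_mem' := by
        rintro a b ⟨ha, ha'⟩ ⟨hb, hb'⟩
        refine ⟨mul_mem ha hb, ?_⟩
        rw [show ⁅g, a * b⁆ = ⁅g, a⁆ * (a * ⁅g, b⁆ * a⁻¹) by simp only [commutatorElement_def]; group]
        exact mul_mem ha' ((mem_normalizer_iff.1 ha _).1 hb')
      inv_mem' := by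
        rintro a ⟨ha, ha'⟩
        refine ⟨inv_mem ha, (mem_normalizer_iff.1 ha _).2 ?_⟩
        rw [show a * ⁅g, a⁻¹⁆ * a⁻¹ = ⁅g, a⁆⁻¹ by simp only [commutatorElement_def]; group]
        exact inv_mem ha' }
  intro e he
  exact ((sup_le (fun a ha => ⟨hA ha, hgA.2 a ha⟩) (fun b hb => ⟨hB hb, hgB.2 b hb⟩) :
    A ⊔ B ≤ S) he).2

theorem mem_normalizer_of_forall [Finite G] {E : Subgroup G} {g : G}
    (h : ∀ e ∈ E, g * e * g⁻¹ ∈ E) : g ∈ normalizer (E : Set G) := by
  have hmap : E.map (MulAut.conj g).toMonoidHom = E := by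
    refine eq_of_le_of_card_ge ?_ (card_map_of_injective (MulAut.conj g).injective).ge
    rintro _ ⟨e, he, rfl⟩
    exact h e he
  refine mem_normalizer_iff.2 fun e => ⟨h e, fun he => ?_⟩
  obtain ⟨f, hf, hfe⟩ := hmap.ge he
  rwa [← (MulAut.conj g).injective (hfe : MulAut.conj g f = MulAut.conj g e)]

theorem mem_normalizer_of_mem_fixMod [Finite G] {E W : Subgroup G} {g : G} (hWE : W ≤ E)
    (hg : g ∈ fixMod E W) : g ∈ normalizer (E : Set G) :=
  mem_normalizer_of_forall fun e he => by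
    rw [show g * e * g⁻¹ = ⁅g, e⁆ * e by simp only [commutatorElement_def]; group]
    exact mul_mem (hWE (hg.2 e he)) he

theorem conj_mem_fixMod {E W : Subgroup G} {g k : G} (hgE : g ∈ normalizer (E : Set G))
    (hgW : g ∈ normalizer (W : Set G)) (hk : k ∈ fixMod E W) : g * k * g⁻¹ ∈ fixMod E W := by
  refine ⟨mul_mem (mul_mem hgW hk.1) (inv_mem hgW), fun e he => ?_⟩
  have he' : g⁻¹ * e * g ∈ E := (mem_normalizer_iff.1 hgE _).2 (by
    rwa [show g * (g⁻¹ * e * g) * g⁻¹ = e by group])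
  have h := (mem_normalizer_iff.1 hgW _).1 (hk.2 _ he')
  rwa [show g * ⁅k, g⁻¹ * e * g⁆ * g⁻¹ = ⁅g * k * g⁻¹, e⁆ by
    simp only [commutatorElement_def]; group] at h

variable [Finite G] {p : ℕ} [hp : Fact p.Prime] (P : Sylow p G)

/-- The lower central terms of the Sylow subgroup, in `G`. -/
def lowL (j : ℕ) : Subgroup G := (lcs ↥(P : Subgroup G) j).map (P : Subgroup G).subtype

theorem lowL_le (j : ℕ) : lowL P j ≤ (P : Subgroup G) := map_subtype_le _

theorem lowL_antitone {i j : ℕ} (h : i ≤ j) : lowL P j ≤ lowL P i :=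
  map_mono (Subgroup.lowerCentralSeries_antitone _ h)

theorem le_normalizer_lowL (j : ℕ) : (P : Subgroup G) ≤ normalizer (lowL P j : Set G) := by
  intro a ha
  refine mem_normalizer_of_forall fun e he => ?_
  obtain ⟨e, he, rfl⟩ := he
  exact ⟨⟨a, ha⟩ * e * ⟨a, ha⟩⁻¹, (inferInstance : (lcs ↥(P : Subgroup G) j).Normal).conj_mem e he _, rfl⟩

theorem commutator_mem_lowL {a b : G} {j : ℕ} (ha : a ∈ lowL P j) (hb : b ∈ (P : Subgroup G)) :
    ⁅a, b⁆ ∈ lowL P (j + 1) ∧ ⁅b, a⁆ ∈ lowL P (j + 1) := by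
  obtain ⟨a, ha, rfl⟩ := ha
  have h := commutator_mem_commutator ha (mem_top (⟨b, hb⟩ : ↥(P : Subgroup G)))
  rw [← lcs_succ] at h
  have h1 : ⁅(P : Subgroup G).subtype a, b⁆ ∈ lowL P (j + 1) :=
    ⟨_, h, map_commutatorElement _ _ _⟩
  exact ⟨h1, by rw [← commutatorElement_inv]; exact inv_mem h1⟩

section

variable {n : ℕ} (hn : 4 ≤ n) (hcard : Nat.card P = p ^ n)
  (hmax : Group.nilpotencyClass ↥(P : Subgroup G) = n - 1)

include hn hcard hmax

theorem card_lowL {j : ℕ} (hj : 1 ≤ j) (hjn : j ≤ n - 1) :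
    Nat.card (lowL P j) = p ^ (n - 1 - j) := by
  rw [lowL, card_map_of_injective (subtype_injective _)]
  exact card_lcs (by omega) hcard hmax j hj hjn

/-- Outside the stated normal subgroup the centraliser has `p`-part `p ^ 2`. -/
theorem factorization_centralizer_eq_two (x : ↥(P : Subgroup G))
    (hC : Nat.card (centralizer ({x} : Set ↥(P : Subgroup G))) = p ^ 2)
    (hts : ∀ i, 1 ≤ i → i + 2 ≤ n - 1 → x ∉ twoStep ↥(P : Subgroup G) i)
    (N : Subgroup G) [N.Normal] (hZN : lowL P (n - 3) ≤ N) (hxN : (x : G) ∉ N) :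
    (Nat.card (centralizer ({(x : G)} : Set G))).factorization p = 2 := by
  classical
  have hp' := hp.out
  have hc : ∀ j, 1 ≤ j → j ≤ n - 1 → Nat.card (lcs ↥(P : Subgroup G) j) = p ^ (n - 1 - j) :=
    card_lcs (by omega) hcard hmax
  have hPp : IsPGroup p ↥(P : Subgroup G) := P.isPGroup'
  -- facts about `x`
  have hx1 : x ∉ lcs ↥(P : Subgroup G) 1 := fun h => hts 1 le_rfl (by omega) (mem_twoStep.2 fun y hy => by
    have h1 := comm_lcs 1 1 (commutator_mem_commutator (inv_mem hy) h)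
    simpa [commutatorElement_def, mul_assoc] using h1)
  have hxp : ∀ i, 1 ≤ i → i ≤ n - 2 → x ^ p ∈ lcs ↥(P : Subgroup G) i := by
    intro i hi
    induction i, hi using Nat.le_induction with
    | base =>
      intro _
      exact pow_mem_lcs_one (m := n - 1) hPp (by omega)
        (by rw [Nat.sub_add_cancel (by omega : 1 ≤ n)]; exact hcard) hc x
    | succ i hi ih => intro hin; exact pow_mem_succ hc hi (by omega) (hts i hi (by omega)) (ih (by omega))
  let Z : ℕ → Subgroup G := fun l => lowL P (n - 1 - l)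
  have hZP : ∀ l, Z l ≤ (P : Subgroup G) := fun l => lowL_le P _
  have hPZ : ∀ l, (P : Subgroup G) ≤ normalizer (Z l : Set G) := fun l => le_normalizer_lowL P _
  have hZmono : ∀ {l k}, l ≤ k → Z l ≤ Z k := fun h => lowL_antitone P (by omega)
  have hZcard : ∀ l, l ≤ n - 2 → Nat.card (Z l) = p ^ l := fun l hl => by
    rw [card_lowL P hn hcard hmax (by omega) (by omega), show n - 1 - (n - 1 - l) = l by omega]
  have hZ0 : Z 0 = ⊥ := eq_bot_of_card_eq _ (by rw [hZcard 0 (by omega), pow_zero])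
  have hZcomm : ∀ {l a b}, l + 1 ≤ n - 1 → a ∈ Z (l + 1) → b ∈ (P : Subgroup G) →
      ⁅a, b⁆ ∈ Z l ∧ ⁅b, a⁆ ∈ Z l := fun {l a b} hl ha hb => by
    have := commutator_mem_lowL P ha hb
    rwa [show n - 1 - (l + 1) + 1 = n - 1 - l by omega] at this
  let H : ℕ → Subgroup G := fun j => ⨅ l ∈ Finset.range j, fixMod (Z (l + 1)) (Z l)
  let E : ℕ → Subgroup G := fun j => zpowers (x : G) ⊔ Z j
  let F : ℕ → Subgroup G := fun j => H j ⊓ fixMod (zpowers (x : G)) (Z j)
  let K : ℕ → Subgroup G := fun j => H (j + 1) ⊓ fixMod (E (j + 1)) (Z j)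
  have hmemH : ∀ {j g}, g ∈ H j ↔ ∀ l < j, g ∈ fixMod (Z (l + 1)) (Z l) := fun {j g} => by
    simp only [H, mem_iInf, Finset.mem_range]
  have hPH : ∀ j, j ≤ n - 2 → (P : Subgroup G) ≤ H j := fun j hj a ha => hmemH.2 fun l hl =>
    ⟨hPZ l ha, fun e he => (hZcomm (by omega) he ha).2⟩
  have hHN : ∀ {j g}, g ∈ H j → ∀ l ≤ j, g ∈ normalizer (Z l : Set G) := fun {j g} hg l hl => by
    rcases Nat.eq_zero_or_pos l with rfl | h0
    · rw [hZ0]
      exact mem_normalizer_of_forall fun e he => by rw [mem_bot.1 he]; simp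
    · obtain ⟨l, rfl⟩ := Nat.exists_eq_add_of_le' h0
      exact mem_normalizer_of_mem_fixMod (hZmono (Nat.le_succ l)) (hmemH.1 hg l (by omega))
  have hEP : ∀ j, E j ≤ (P : Subgroup G) := fun j => sup_le (zpowers_le.2 x.2) (hZP j)
  have hxnot : ∀ l, l ≤ n - 2 → (x : G) ∉ Z l := fun l hl hxl => by
    obtain ⟨y, hy, hyx⟩ := hxl
    exact hx1 ((subtype_injective _ hyx) ▸ Subgroup.lowerCentralSeries_antitone _ (show 1 ≤ n - 1 - l by omega) hy)
  have hEcard : ∀ j, 1 ≤ j → j ≤ n - 2 → Nat.card (E j) = p ^ (j + 1) := fun j hj hjn => by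
    have e : E j = (zpowers x ⊔ lcs ↥(P : Subgroup G) (n - 1 - j)).map (P : Subgroup G).subtype := by
      rw [Subgroup.map_sup, MonoidHom.map_zpowers]; rfl
    rw [e, card_map_of_injective (subtype_injective _)]
    haveI : (lcs ↥(P : Subgroup G) (n - 1 - j)).Normal := inferInstance
    set π := QuotientGroup.mk' (lcs ↥(P : Subgroup G) (n - 1 - j))
    rw [H73.Sectional.card_map_mk (lcs ↥(P : Subgroup G) (n - 1 - j)) _ le_sup_right,
      hc _ (by omega) (by omega), show n - 1 - (n - 1 - j) = j by omega, Subgroup.map_sup,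
      QuotientGroup.map_mk'_self, sup_bot_eq, MonoidHom.map_zpowers, Nat.card_zpowers, pow_succ]
    congr 1
    refine orderOf_eq_prime ?_ fun h => ?_
    · rw [← map_pow]; exact (QuotientGroup.eq_one_iff _).2 (hxp _ (by omega) (by omega))
    · exact hx1 (Subgroup.lowerCentralSeries_antitone _ (show 1 ≤ n - 1 - j by omega)
        ((QuotientGroup.eq_one_iff _).1 h))
  have hEN : ∀ j l, E j ≤ normalizer (Z l : Set G) := fun j l => (hEP j).trans (hPZ l)
  have hEF : ∀ j, j + 1 ≤ n - 2 → E (j + 1) ≤ F j := fun j hj e he => by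
    refine ⟨hPH j (by omega) (hEP _ he), ?_⟩
    refine (sup_le ?_ ?_ : E (j + 1) ≤ fixMod (zpowers (x : G)) (Z j)) he
    · rw [zpowers_le]
      refine ⟨hPZ j x.2, fun e he => ?_⟩
      obtain ⟨s, rfl⟩ := mem_zpowers_iff.1 he
      rw [commutatorElement_eq_one_iff_mul_comm.2 ((Commute.refl (x : G)).zpow_right s).eq]
      exact one_mem _
    · exact fun a ha => ⟨hPZ j (hZP _ ha), fun e he =>
        (hZcomm (by omega) ha (zpowers_le.2 x.2 he)).1⟩
  -- the main step
  have step : ∀ j, j + 1 ≤ n - 2 → p ^ (j + 3) ∣ Nat.card (F j) →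
      ∃ T : Subgroup G, Nat.card T = p ^ (j + 3) ∧ E (j + 1) ≤ T ∧ T ≤ K j := by
    intro j hj hdvd
    have hEc : Nat.card ((E (j + 1)).subgroupOf (F j)) = p ^ (j + 2) := by
      rw [Nat.card_congr (subgroupOfEquivOfLe (hEF j hj)).toEquiv, hEcard _ (by omega) hj]
    obtain ⟨T', hT'c, hET'⟩ := Sylow.exists_subgroup_card_pow_succ hdvd hEc
    set T := T'.map (F j).subtype with hTdef
    have hTc : Nat.card T = p ^ (j + 3) := by rw [hTdef, card_map_of_injective (subtype_injective _), hT'c]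
    have hTF : T ≤ F j := map_subtype_le _
    have hET : E (j + 1) ≤ T := fun e he => ⟨⟨e, hEF j hj he⟩, hET' he, rfl⟩
    have hTp : IsPGroup p T := IsPGroup.of_card hTc
    have hlt : E (j + 1) < T := lt_of_le_of_ne hET fun e => by
      have := hEcard (j + 1) (by omega) hj
      rw [e, hTc] at this
      have := Nat.pow_right_injective hp'.two_le this
      omega
    have hTE : T ≤ normalizer (E (j + 1) : Set G) := by
      have h1 := PGroup.lt_inf_normalizer hTp hlt
      obtain ⟨a, ha⟩ := IsPGroup.iff_card.1 (hTp.to_le (inf_le_left :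
        T ⊓ normalizer (E (j + 1) : Set G) ≤ T))
      have h2 : Nat.card (E (j + 1)) < Nat.card (T ⊓ normalizer (E (j + 1) : Set G) : Subgroup G) :=
        Set.ncard_lt_ncard (SetLike.coe_ssubset_coe.mpr h1) (Set.toFinite _)
      rw [ha, hEcard _ (by omega) hj, Nat.pow_lt_pow_iff_right hp'.one_lt] at h2
      exact (eq_of_le_of_card_ge inf_le_left (by
        rw [hTc, ha]; exact Nat.pow_le_pow_right hp'.pos (by omega))).ge.trans inf_le_right
    -- `T` normalises `Z (j+1)`
    have hTZ : T ≤ normalizer (Z (j + 1) : Set G) := by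
      intro t ht
      refine mem_normalizer_of_forall fun z hz => ?_
      have htz : t * z * t⁻¹ ∈ E (j + 1) := (mem_normalizer_iff.1 (hTE ht) _).1 (mem_sup_right hz)
      -- a subgroup of `E (j+1)` over `Z (j+1)` without `x` is `Z (j+1)`
      have hcut : ∀ M : Subgroup G, Z (j + 1) ≤ M → (x : G) ∉ M → E (j + 1) ⊓ M ≤ Z (j + 1) := by
        intro M hM hxM
        have hlt2 : E (j + 1) ⊓ M < E (j + 1) := lt_of_le_of_ne inf_le_left fun e =>
          hxM (e.ge (mem_sup_left (mem_zpowers (x : G)))).2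
        obtain ⟨a, ha⟩ := IsPGroup.iff_card.1 ((hPp.to_le ((inf_le_left : E (j + 1) ⊓ M ≤ _).trans (hEP _))))
        have h2 : Nat.card (E (j + 1) ⊓ M : Subgroup G) < Nat.card (E (j + 1)) :=
          Set.ncard_lt_ncard (SetLike.coe_ssubset_coe.mpr hlt2) (Set.toFinite _)
        rw [ha, hEcard _ (by omega) hj, Nat.pow_lt_pow_iff_right hp'.one_lt] at h2
        exact (eq_of_le_of_card_ge (le_inf le_sup_right hM) (by
          rw [ha, hZcard _ hj]; exact Nat.pow_le_pow_right hp'.pos (by omega))).ge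
      by_cases hj2 : j + 1 ≤ 2
      · have hZN' : Z (j + 1) ≤ N := (hZmono hj2).trans (le_of_eq_of_le
          (show Z 2 = lowL P (n - 3) by show lowL P (n - 1 - 2) = _; rw [show n - 1 - 2 = n - 3 by omega]) hZN)
        exact hcut N hZN' hxN ⟨htz, (inferInstance : N.Normal).conj_mem z (hZN' hz) t⟩
      · refine hcut (centralizer (Z 2 : Set G)) (fun a ha => mem_centralizer_iff.2 fun b hb => ?_) ?_ ⟨htz, ?_⟩
        · obtain ⟨a, ha, rfl⟩ := ha
          obtain ⟨b, hb, rfl⟩ := hb
          have h := comm_lcs _ _ (commutator_mem_commutator hb ha)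
          rw [lcs_eq_bot hc (by omega) (by omega), mem_bot, commutatorElement_eq_one_iff_mul_comm] at h
          rw [← map_mul, ← map_mul, h]
        · intro hxc
          refine hts (n - 3) (by omega) (by omega) (mem_twoStep.2 fun y hy => ?_)
          have h : (y : G) * (x : G) = (x : G) * (y : G) := mem_centralizer_iff.1 hxc _
            ⟨y, by rwa [show n - 1 - 2 = n - 3 by omega], rfl⟩
          have h' : y * x = x * y := Subtype.ext h
          rw [mul_assoc (y⁻¹) x y, ← h', inv_mul_cancel_left, mul_inv_cancel]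
          exact one_mem _
        · refine mem_centralizer_iff.2 fun b hb => ?_
          have htn : t ∈ normalizer (Z 2 : Set G) := hHN (hTF ht).1 2 (by omega)
          have hb' : t⁻¹ * b * t ∈ Z 2 := (mem_normalizer_iff.1 htn _).2 (by
            rwa [show t * (t⁻¹ * b * t) * t⁻¹ = b by group])
          obtain ⟨a, ha, hae⟩ := hz
          obtain ⟨c, hcm, hce⟩ := hb'
          have h := comm_lcs _ _ (commutator_mem_commutator hcm ha)
          rw [lcs_eq_bot hc (by omega) (by omega), mem_bot, commutatorElement_eq_one_iff_mul_comm] at h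
          have h' := congrArg (fun u : ↥(P : Subgroup G) => t * (u : G) * t⁻¹) h
          simp only [Subgroup.coe_mul] at h'
          rw [show (a : G) = z from hae, show (c : G) = t⁻¹ * b * t from hce] at h'
          calc b * (t * z * t⁻¹) = t * (t⁻¹ * b * t * z) * t⁻¹ := by group
            _ = t * (z * (t⁻¹ * b * t)) * t⁻¹ := h'
            _ = t * z * t⁻¹ * b := by group
    have hTW : T ≤ normalizer (Z j : Set G) := fun t ht => hHN (hTF ht).1 j le_rfl
    -- `T` centralises `Z (j+1)` modulo `Z j`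
    have hTfix : T ≤ fixMod (Z (j + 1)) (Z j) := by
      have hZT : Z (j + 1) ≤ T := le_sup_right.trans hET
      haveI hAn : ((Z (j + 1)).subgroupOf T).Normal := normal_subgroupOf_iff_le_normalizer hZT |>.2 hTZ
      haveI hWn : ((Z j).subgroupOf T).Normal :=
        normal_subgroupOf_iff_le_normalizer ((hZmono (Nat.le_succ j)).trans hZT) |>.2 hTW
      set π := QuotientGroup.mk' ((Z j).subgroupOf T)
      haveI : (((Z (j + 1)).subgroupOf T).map π).Normal := hAn.map π (QuotientGroup.mk'_surjective _)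
      have hcp : Nat.card (((Z (j + 1)).subgroupOf T).map π) = p := by
        have h1 := H73.Sectional.card_map_mk ((Z j).subgroupOf T) ((Z (j + 1)).subgroupOf T)
          (comap_mono (hZmono (Nat.le_succ j)))
        rw [Nat.card_congr (subgroupOfEquivOfLe hZT).toEquiv,
          Nat.card_congr (subgroupOfEquivOfLe ((hZmono (Nat.le_succ j)).trans hZT)).toEquiv,
          hZcard _ hj, hZcard j (by omega), pow_succ] at h1
        exact (Nat.eq_of_mul_eq_mul_left (pow_pos hp'.pos j) h1).symm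
      intro t ht
      refine ⟨hTW ht, fun z hz => ?_⟩
      have hzc := PGroup.le_center_of_card_eq (hTp.to_quotient _) hcp
        (mem_map_of_mem π (show (⟨z, hZT hz⟩ : T) ∈ (Z (j + 1)).subgroupOf T from hz))
      have h1 : π ⁅(⟨t, ht⟩ : T), ⟨z, hZT hz⟩⁆ = 1 := by
        rw [map_commutatorElement, commutatorElement_eq_one_iff_mul_comm]
        exact mem_center_iff.1 hzc _
      have h2 : ⁅(⟨t, ht⟩ : T), ⟨z, hZT hz⟩⁆ ∈ (Z j).subgroupOf T := (QuotientGroup.eq_one_iff _).1 h1
      exact mem_subgroupOf.1 h2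
    refine ⟨T, hTc, hET, fun t ht => ⟨hmemH.2 fun l hl => ?_, ?_⟩⟩
    · rcases Nat.lt_succ_iff_lt_or_eq.1 hl with hl | rfl
      · exact hmemH.1 (hTF ht).1 l hl
      · exact hTfix ht
    · exact fixMod_sup ((zpowers_le.2 x.2).trans (hPZ j)) ((hZP _).trans (hPZ j)) (hTF ht).2 (hTfix ht)
  -- the two bounds
  have hge : p ^ 2 ∣ Nat.card (centralizer ({(x : G)} : Set G)) := by
    rw [← hC, ← card_map_of_injective (K := centralizer ({x} : Set ↥(P : Subgroup G)))
      (subtype_injective (P : Subgroup G))]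
    refine card_dvd_of_le ?_
    rintro _ ⟨u, hu, rfl⟩
    exact mem_centralizer_singleton_iff.2 (congrArg Subtype.val (mem_centralizer_singleton_iff.1 hu))
  have hne : Nat.card (centralizer ({(x : G)} : Set G)) ≠ 0 := Nat.card_pos.ne'
  refine le_antisymm (le_of_not_gt fun hgt => ?_) ((hp'.pow_dvd_iff_le_factorization hne).1 hge)
  -- the induction
  have hind : ∀ j, j + 1 ≤ n - 2 → p ^ (j + 3) ∣ Nat.card (F j) := by
    intro j
    induction j with
    | zero =>
      intro _
      refine ((hp'.pow_dvd_iff_le_factorization hne).2 hgt).trans (card_dvd_of_le fun g hg => ?_)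
      refine ⟨hmemH.2 fun l hl => absurd hl (Nat.not_lt_zero l), ?_⟩
      refine ⟨by rw [hZ0]; exact mem_normalizer_of_forall fun e he => by rw [mem_bot.1 he]; simp,
        fun e he => ?_⟩
      obtain ⟨s, rfl⟩ := mem_zpowers_iff.1 he
      rw [commutatorElement_eq_one_iff_mul_comm.2
        ((show Commute g (x : G) from mem_centralizer_singleton_iff.1 hg).zpow_right s).eq]
      exact one_mem _
    | succ j ih =>
      intro hj
      obtain ⟨T, hTc, -, hTK⟩ := step j (by omega) (ih (by omega))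
      have hKd : p ^ (j + 3) ∣ Nat.card (K j) := hTc ▸ card_dvd_of_le hTK
      have hKF : K j ≤ F (j + 1) := fun k hk => ⟨hk.1, hHN hk.1 _ le_rfl,
        fun e he => hZmono (Nat.le_succ j) (hk.2.2 e (mem_sup_left he))⟩
      haveI : ((K j).subgroupOf (F (j + 1))).Normal := ⟨fun k hk g => by
        have hgH : (g : G) ∈ H (j + 1) := g.2.1
        rw [mem_subgroupOf]
        show (g : G) * (k : G) * (g : G)⁻¹ ∈ K j
        refine ⟨(H (j + 1)).mul_mem ((H (j + 1)).mul_mem hgH (mem_subgroupOf.1 hk).1)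
          ((H (j + 1)).inv_mem hgH), ?_⟩
        refine conj_mem_fixMod ?_ (hHN hgH j (by omega)) (mem_subgroupOf.1 hk).2
        refine mem_normalizer_of_forall fun e he => ?_
        refine (sup_le ?_ ?_ : E (j + 1) ≤ (E (j + 1)).comap (MulAut.conj (g : G)).toMonoidHom) he
        · rw [zpowers_le]
          show (g : G) * x * (g : G)⁻¹ ∈ E (j + 1)
          rw [show (g : G) * x * (g : G)⁻¹ = ⁅(g : G), (x : G)⁆ * x by
            simp only [commutatorElement_def]; group]
          exact mul_mem (mem_sup_right (g.2.2.2 _ (mem_zpowers _))) (mem_sup_left (mem_zpowers _))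
        · exact fun a ha => mem_sup_right ((mem_normalizer_iff.1 (hHN hgH _ le_rfl) a).1 ha)⟩
      -- an element of `Z (j+2)` outside `Z (j+1)`
      obtain ⟨z, hz, hz'⟩ := lcs_succ_lt hc (j := n - 1 - (j + 2)) (by omega) (by omega)
      have hzZ : (z : G) ∈ Z (j + 1 + 1) := ⟨z, hz, rfl⟩
      have hzF : (z : G) ∈ F (j + 1) := ⟨hPH _ (by omega) z.2, hPZ _ z.2, fun e he =>
        (hZcomm (by omega) hzZ (zpowers_le.2 x.2 he)).1⟩
      have hzK : (z : G) ∉ K j := fun h => hz' (by
        obtain ⟨u, hu, hue⟩ := h.2.2 (x : G) (mem_sup_left (mem_zpowers _))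
        have hu' : ⁅z, x⁆ = u := subtype_injective _ (by rw [hue, map_commutatorElement]; rfl)
        refine mem_succ_of_comm hc (by omega) (by omega) (hts _ (by omega) (by omega)) hz ?_
        rw [hu', show n - 1 - (j + 2) + 2 = n - 1 - j by omega]
        exact hu)
      set π := QuotientGroup.mk' ((K j).subgroupOf (F (j + 1)))
      have hq : p ∣ Nat.card (↥(F (j + 1)) ⧸ (K j).subgroupOf (F (j + 1))) := by
        obtain ⟨k, hk⟩ := hPp z
        have hzk : (z : G) ^ p ^ k = 1 := congrArg Subtype.val hk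
        have h1 : π ⟨z, hzF⟩ ^ p ^ k = 1 := by
          rw [← map_pow, show (⟨z, hzF⟩ : ↥(F (j + 1))) ^ p ^ k = 1 from Subtype.ext hzk, map_one]
        obtain ⟨i, -, hi⟩ := (Nat.dvd_prime_pow hp').1 (orderOf_dvd_of_pow_eq_one h1)
        have hi0 : i ≠ 0 := by
          rintro rfl
          rw [pow_zero, orderOf_eq_one_iff] at hi
          have h2 : (⟨z, hzF⟩ : ↥(F (j + 1))) ∈ (K j).subgroupOf (F (j + 1)) := (QuotientGroup.eq_one_iff _).1 hi
          exact hzK (mem_subgroupOf.1 h2)
        exact (dvd_pow_self p hi0).trans (hi ▸ orderOf_dvd_natCard _)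
      rw [card_eq_card_quotient_mul_card_subgroup ((K j).subgroupOf (F (j + 1))),
        Nat.card_congr (subgroupOfEquivOfLe hKF).toEquiv, show j + 1 + 3 = 1 + (j + 3) by omega,
        pow_add, pow_one]
      exact Nat.mul_dvd_mul hq hKd
  -- the last step
  obtain ⟨T, hTc, hET, hTK⟩ := step (n - 3) (by omega) (hind (n - 3) (by omega))
  rw [show n - 3 + 3 = n by omega] at hTc
  have hTW : T ≤ normalizer (Z (n - 3) : Set G) := fun t ht => (hTK ht).2.1
  obtain ⟨y, hyT, hyE⟩ : ∃ y ∈ T, y ∉ E (n - 3 + 1) := SetLike.exists_of_lt (lt_of_le_of_ne hET fun e => by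
    have := hEcard (n - 3 + 1) (by omega) (by omega)
    rw [e, hTc] at this
    have := Nat.pow_right_injective hp'.two_le this
    omega)
  have hgen : T ≤ zpowers y ⊔ E (n - 3 + 1) := by
    have hle : zpowers y ⊔ E (n - 3 + 1) ≤ T := sup_le (zpowers_le.2 hyT) hET
    obtain ⟨a, ha⟩ := IsPGroup.iff_card.1 ((IsPGroup.of_card hTc).to_le hle)
    have h2 : Nat.card (E (n - 3 + 1)) < Nat.card (zpowers y ⊔ E (n - 3 + 1) : Subgroup G) :=
      Set.ncard_lt_ncard (SetLike.coe_ssubset_coe.mpr (lt_of_le_of_ne le_sup_right fun e =>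
        hyE (e.ge (mem_sup_left (mem_zpowers y))))) (Set.toFinite _)
    rw [ha, hEcard _ (by omega) (by omega), Nat.pow_lt_pow_iff_right hp'.one_lt] at h2
    exact (eq_of_le_of_card_ge hle (by rw [ha, hTc]; exact Nat.pow_le_pow_right hp'.pos (by omega))).ge
  have hTT : ⁅T, T⁆ ≤ Z (n - 3) := by
    have hfixE : T ≤ fixMod (E (n - 3 + 1)) (Z (n - 3)) := fun t ht => (hTK ht).2
    have hfix : T ≤ fixMod T (Z (n - 3)) := by
      refine hgen.trans (sup_le ?_ fun e he => ?_)
      · rw [zpowers_le]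
        have h1 : y ∈ fixMod (zpowers y) (Z (n - 3)) := ⟨hTW hyT, fun e he => by
          obtain ⟨s, rfl⟩ := mem_zpowers_iff.1 he
          rw [commutatorElement_eq_one_iff_mul_comm.2 ((Commute.refl y).zpow_right s).eq]
          exact one_mem _⟩
        have h2 := fixMod_sup ((zpowers_le.2 hyT).trans hTW) (hEN _ _) h1 (hfixE hyT)
        exact ⟨h2.1, fun e he => h2.2 e (hgen he)⟩
      · refine ⟨hTW (hET he), fun t ht => ?_⟩
        rw [← commutatorElement_inv]
        exact inv_mem ((hfixE ht).2 e he)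
    rw [commutator_le]
    exact fun a ha b hb => (hfix ha).2 b hb
  obtain ⟨S, hTS⟩ := (IsPGroup.of_card hTc).exists_le_sylow
  have hTeq : T = (S : Subgroup G) := eq_of_le_of_card_ge hTS (by
    rw [hTc, ← hcard]; exact (Nat.card_congr (S.equiv P).toEquiv).le)
  obtain ⟨g, hg⟩ := MulAction.exists_smul_eq G P S
  have hTmap : T = (P : Subgroup G).map (MulAut.conj g).toMonoidHom := by
    rw [hTeq, ← hg]; rfl
  have h1 := card_le_of_le hTT
  rw [hTmap, ← map_commutator, card_map_of_injective (MulAut.conj g).injective,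
    hZcard _ (by omega)] at h1
  have h2 : Nat.card (⁅(P : Subgroup G), (P : Subgroup G)⁆ : Subgroup G) = p ^ (n - 1 - 1) := by
    rw [← card_lowL P hn hcard hmax le_rfl (by omega), lowL, lcs, top_lowerCentralSeries_one,
      map_subtype_commutator]
  rw [h2] at h1
  have := (Nat.pow_le_pow_iff_right hp'.one_lt).1 h1
  omega

end

end Cfsg.Agent.MaxClassP
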